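import Cfsg.Agent.H588.ZsigPart
import Cfsg.Agent.H851.Rl.List

/-!
# S3691: big `p`-primitive prime powers (helper803)

`exists_big`: for `k ≥ 6` and `(p, f, k)` outside a list of twelve triples there is a prime `r` with `ord_r(p) = f k` such
that the full power of `r` dividing `p ^ (f k) - 1` is larger than `2 k + 1`.
-/

set_option autoImplicit false

namespace Cfsg.Agent.H803.Rl

open Cfsg.Agent.H365.Zsig Cfsg.Agent.Lib.Zsigmondy Cfsg.Agent.H588.ZsigPart

/-- the full power of a `p`-primitive prime `r` for `N` is larger than `B` -/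
def Bg (p N B : ℕ) : Prop :=
  ∃ r : ℕ, r.Prime ∧ orderOf ((p : ℕ) : ZMod r) = N ∧ B < r ^ (p ^ N - 1).factorization r

theorem pow_sub_ne {p N : ℕ} (hp : 2 ≤ p) (hN : 1 ≤ N) : p ^ N - 1 ≠ 0 := by
  have : 2 ≤ p ^ N := le_trans hp (Nat.le_self_pow (by omega) p)
  omega

theorem dvd_of_ord {p N r : ℕ} (hp : 2 ≤ p) (h : orderOf ((p : ℕ) : ZMod r) = N) : r ∣ p ^ N - 1 := by
  rw [dvd_pow_sub_one_iff (by omega), h]

theorem one_le_fact {p N r : ℕ} (hp : 2 ≤ p) (hN : 1 ≤ N) (hr : r.Prime) (h : orderOf ((p : ℕ) : ZMod r) = N) :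
    1 ≤ (p ^ N - 1).factorization r :=
  (hr.dvd_iff_one_le_factorization (pow_sub_ne hp hN)).1 (dvd_of_ord hp h)

/-- explicit witnesses -/
theorem bg_ex {p N B r : ℕ} (hp : 2 ≤ p) (hN : 1 ≤ N) (hr : r.Prime) (h1 : r ∣ p ^ N - 1)
    (h2 : ∀ i ∈ Finset.range N, 1 ≤ i → ¬ r ∣ p ^ i - 1) (h3 : B < r) : Bg p N B := by
  have h : orderOf ((p : ℕ) : ZMod r) = N := by
    have h4 := (dvd_pow_sub_one_iff (by omega) N).1 h1
    have h5 : 0 < orderOf ((p : ℕ) : ZMod r) := Nat.pos_of_dvd_of_pos h4 (by omega)
    by_contra hne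
    have h6 : orderOf ((p : ℕ) : ZMod r) < N := lt_of_le_of_ne (Nat.le_of_dvd (by omega) h4) hne
    exact h2 _ (Finset.mem_range.2 h6) h5 ((dvd_pow_sub_one_iff (by omega) _).2 dvd_rfl)
  refine ⟨r, hr, h, ?_⟩
  calc B < r := h3
    _ = r ^ 1 := (pow_one r).symm
    _ ≤ _ := Nat.pow_le_pow_right hr.pos (one_le_fact hp hN hr h)

/-- Without a big primitive prime power, `Φ_e(q)` divides `(e + 1) (2 e + 1) P`. -/
theorem Ph_le_of_not {q e P : ℕ} (hq : 2 ≤ q) (he : 3 ≤ e) (hP : P.Prime) (hPe : P ∣ e)
    (hmax : ∀ s : ℕ, s.Prime → s ∣ e → s ≤ P) (hno : ¬ Bg q e (2 * e + 1)) :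
    Ph e q ≤ (e + 1) * (2 * e + 1) * P := by
  have hN1 := Ph_gt_one (n := e) (q := q) (by omega) hq
  have hPpos := hP.pos
  refine Nat.le_of_dvd (by positivity) ?_
  rw [← Nat.factorization_le_iff_dvd (by omega) (by positivity)]
  intro s
  by_cases hs : s.Prime
  swap
  · rw [Nat.factorization_eq_zero_of_not_prime _ hs]; exact Nat.zero_le _
  by_cases hsN : s ∣ Ph e q
  swap
  · rw [Nat.factorization_eq_zero_of_not_dvd hsN]; exact Nat.zero_le _
  have key : ¬ s ^ 2 ∣ Ph e q ∧ s ∣ (e + 1) * (2 * e + 1) * P := by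
    rcases prime_dvd_Ph (by omega) hq hs hsN with h | ⟨k, m, h1, h2, h3, h4, h5⟩
    · have hsa : ¬ s ∣ q := by
        intro hd
        have := Fact.mk hs
        have h0 : (q : ZMod s) = 0 := (ZMod.natCast_eq_zero_iff q s).2 hd
        have h1 : (q : ZMod s) ^ e = 1 := by rw [← h]; exact pow_orderOf_eq_one _
        rw [h0, zero_pow (by omega)] at h1
        exact zero_ne_one h1
      have hd : e ∣ s - 1 := by rw [← h]; exact orderOf_dvd_pred hs hsa
      obtain ⟨c, hc⟩ := hd
      have hs2 := hs.two_le
      have hc0 : c ≠ 0 := by rintro rfl; omega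
      have hse : s = e * c + 1 := by omega
      have hle : s ^ (q ^ e - 1).factorization s ≤ 2 * e + 1 := by
        by_contra hlt
        push Not at hlt
        exact hno ⟨s, hs, h, hlt⟩
      have hf1 := one_le_fact hq (by omega) hs h
      have hs1 : s ≤ 2 * e + 1 := by
        refine le_trans ?_ hle
        calc s = s ^ 1 := (pow_one s).symm
          _ ≤ _ := Nat.pow_le_pow_right hs.pos hf1
      have hc2 : c = 1 ∨ c = 2 := by
        have : c < 3 := by
          by_contra hlt
          push Not at hlt
          have := Nat.mul_le_mul_left e hlt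
          omega
        omega
      constructor
      · intro hsq
        have h2 : 2 ≤ (q ^ e - 1).factorization s :=
          (hs.pow_dvd_iff_le_factorization (pow_sub_ne hq (by omega))).1 (hsq.trans (Ph_dvd (by omega) (by omega)))
        have h3 : s ^ 2 ≤ 2 * e + 1 := le_trans (Nat.pow_le_pow_right hs.pos h2) hle
        have h4 : e + 1 ≤ s := by
          rw [hse]
          have := Nat.mul_le_mul_left e (Nat.one_le_iff_ne_zero.2 hc0)
          omega
        nlinarith
      · rcases hc2 with rfl | rfl
        · rw [hse, mul_one, mul_assoc]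
          exact Dvd.intro _ rfl
        · rw [hse, mul_comm e 2, mul_comm (e + 1), mul_assoc]
          exact Dvd.intro _ rfl
    · refine ⟨sq_not_dvd he hq hs h1 h2 h3 h4 h5, ?_⟩
      rw [eq_max hs h1 h4 h5 hP hPe hmax]
      exact Dvd.intro_left _ rfl
  have h1 : (Ph e q).factorization s ≤ 1 := by
    by_contra hlt
    push Not at hlt
    exact key.1 ((hs.pow_dvd_iff_le_factorization (by omega)).2 hlt)
  refine h1.trans ?_
  exact (hs.dvd_iff_one_le_factorization (by positivity)).1 key.2

/-! ### numerical inequalities -/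

/-- `(2Px²+1)(4Px²+1)P` -/
def g (P x : ℕ) : ℕ := (2 * P * x ^ 2 + 1) * (4 * P * x ^ 2 + 1) * P

theorem g_eq (P x : ℕ) : g P x = 8 * P ^ 3 * x ^ 4 + 6 * P ^ 2 * x ^ 2 + P := by unfold g; ring

theorem g5 : ∀ x : ℕ, 8 ≤ x → g 5 x < 2 ^ (3 * x) := by
  intro x hx
  induction x, hx using Nat.le_induction with
  | base => norm_num [g]
  | succ x hx ih =>
    have h1 : 2 ^ (3 * (x + 1)) = 8 * 2 ^ (3 * x) := by rw [mul_add, pow_add]; ring
    rw [g_eq] at ih ⊢
    rw [h1]
    have h2 : (x + 1) ^ 2 ≤ 2 * x ^ 2 := by nlinarith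
    have h3 : (x + 1) ^ 4 ≤ 4 * x ^ 4 := by
      calc (x + 1) ^ 4 = ((x + 1) ^ 2) ^ 2 := by ring
        _ ≤ (2 * x ^ 2) ^ 2 := Nat.pow_le_pow_left h2 2
        _ = _ := by ring
    nlinarith

theorem g7 : ∀ x : ℕ, 4 ≤ x → g 7 x < 2 ^ (5 * x) := by
  intro x hx
  induction x, hx using Nat.le_induction with
  | base => norm_num [g]
  | succ x hx ih =>
    have h1 : 2 ^ (5 * (x + 1)) = 32 * 2 ^ (5 * x) := by rw [mul_add, pow_add]; ring
    rw [g_eq] at ih ⊢
    rw [h1]
    have h2 : (x + 1) ^ 2 ≤ 2 * x ^ 2 := by nlinarith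
    have h3 : (x + 1) ^ 4 ≤ 4 * x ^ 4 := by
      calc (x + 1) ^ 4 = ((x + 1) ^ 2) ^ 2 := by ring
        _ ≤ (2 * x ^ 2) ^ 2 := Nat.pow_le_pow_left h2 2
        _ = _ := by ring
    nlinarith

theorem g11 : ∀ x : ℕ, 2 ≤ x → g 11 x < 2 ^ (9 * x) := by
  intro x hx
  induction x, hx using Nat.le_induction with
  | base => norm_num [g]
  | succ x hx ih =>
    have h1 : 2 ^ (9 * (x + 1)) = 512 * 2 ^ (9 * x) := by rw [mul_add, pow_add]; ring
    rw [g_eq] at ih ⊢
    rw [h1]
    have h2 : (x + 1) ^ 2 ≤ 4 * x ^ 2 := by nlinarith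
    have h3 : (x + 1) ^ 4 ≤ 16 * x ^ 4 := by
      calc (x + 1) ^ 4 = ((x + 1) ^ 2) ^ 2 := by ring
        _ ≤ (4 * x ^ 2) ^ 2 := Nat.pow_le_pow_left h2 2
        _ = _ := by ring
    nlinarith

theorem g19 : ∀ x : ℕ, 1 ≤ x → g 19 x < 2 ^ (17 * x) := by
  intro x hx
  induction x, hx using Nat.le_induction with
  | base => norm_num [g]
  | succ x hx ih =>
    have h1 : 2 ^ (17 * (x + 1)) = 131072 * 2 ^ (17 * x) := by rw [mul_add, pow_add]; ring
    rw [g_eq] at ih ⊢
    rw [h1]
    have h2 : (x + 1) ^ 2 ≤ 4 * x ^ 2 := by nlinarith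
    have h3 : (x + 1) ^ 4 ≤ 16 * x ^ 4 := by
      calc (x + 1) ^ 4 = ((x + 1) ^ 2) ^ 2 := by ring
        _ ≤ (4 * x ^ 2) ^ 2 := Nat.pow_le_pow_left h2 2
        _ = _ := by ring
    nlinarith

theorem g_step {x y z : ℕ} (hx : 1 ≤ x) (hz : 5 ≤ z) (hzy : z ≤ y) (h : g z x < 2 ^ ((z - 2) * x)) :
    g y x < 2 ^ ((y - 2) * x) := by
  induction y, hzy using Nat.le_induction with
  | base => exact h
  | succ y hy ih =>
    have h1 : (y + 1 - 2) * x = (y - 2) * x + x := by
      rw [show y + 1 - 2 = (y - 2) + 1 by omega]; ring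
    rw [h1, pow_add]
    have h2 : 2 ≤ 2 ^ x := by
      calc 2 = 2 ^ 1 := rfl
        _ ≤ 2 ^ x := Nat.pow_le_pow_right (by norm_num) hx
    have h3 : (y + 1) ^ 2 ≤ 2 * y ^ 2 := by nlinarith
    have h5 : (y + 1) ^ 3 ≤ 2 * y ^ 3 := by
      have h6 : 5 * y ^ 2 ≤ y ^ 3 := by
        calc 5 * y ^ 2 ≤ y * y ^ 2 := Nat.mul_le_mul_right _ (by omega)
          _ = y ^ 3 := by ring
      nlinarith
    have h7 : g (y + 1) x ≤ g y x * 2 := by
      rw [g_eq, g_eq]
      have h8 := Nat.mul_le_mul_right (8 * x ^ 4) h5
      have h9 := Nat.mul_le_mul_right (6 * x ^ 2) h3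
      nlinarith
    calc g (y + 1) x ≤ g y x * 2 := h7
      _ < 2 ^ ((y - 2) * x) * 2 := by omega
      _ ≤ 2 ^ ((y - 2) * x) * 2 ^ x := Nat.mul_le_mul_left _ h2

theorem g_main {P x : ℕ} (h : (5 ≤ P ∧ 8 ≤ x) ∨ (7 ≤ P ∧ 4 ≤ x) ∨ (11 ≤ P ∧ 2 ≤ x) ∨ (19 ≤ P ∧ 1 ≤ x)) :
    g P x < 2 ^ ((P - 2) * x) := by
  rcases h with ⟨h1, h2⟩ | ⟨h1, h2⟩ | ⟨h1, h2⟩ | ⟨h1, h2⟩
  · exact g_step (by omega) le_rfl h1 (g5 x h2)
  · exact g_step (by omega) (by norm_num) h1 (g7 x h2)
  · exact g_step (by omega) (by norm_num) h1 (g11 x h2)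
  · exact g_step (by omega) (by norm_num) h1 (g19 x h2)

/-! ### the cases -/

/-- the exceptional pairs -/
def Exc1 (q e : ℕ) : Prop :=
  (q, e) ∈ [(2, 6), (2, 8), (2, 10), (2, 12), (2, 18), (2, 20), (3, 6), (3, 18), (5, 6), (17, 6)]

theorem bd {q e d B C : ℕ} (h1 : q ^ d ≤ Ph e q) (h2 : Ph e q ≤ C) (h3 : C < (B + 1) ^ d) : q ≤ B := by
  by_contra hlt
  push Not at hlt
  have h4 : (B + 1) ^ d ≤ q ^ d := Nat.pow_le_pow_left hlt d
  omega

theorem case_two {q e : ℕ} (hp : q.Prime) (he : 6 ≤ e) (k : ℕ) (hek : e = 2 ^ (k + 1))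
    (hle : Ph e q ≤ (e + 1) * (2 * e + 1) * 2) (hE : ¬ Exc1 q e) : Bg q e (2 * e + 1) := by
  have hq := hp.two_le
  rw [hek, Ph_two hq] at hle
  match k, hek, hle with
  | 0, hek, _ => simp at hek; omega
  | 1, hek, _ => norm_num at hek; omega
  | 2, hek, hle =>
    norm_num at hle hek
    subst hek
    have hq3 : q < 5 := by
      by_contra hlt
      push Not at hlt
      have : 5 ^ 4 ≤ q ^ 4 := Nat.pow_le_pow_left hlt 4
      norm_num at this
      omega
    interval_cases q
    · exact absurd (by simp [Exc1]) hE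
    · exact bg_ex (r := 41) (by norm_num) (by norm_num) (by norm_num) (by decide) (by decide) (by norm_num)
    · norm_num at hp
  | 3, hek, hle =>
    norm_num at hle hek
    subst hek
    have hq3 : q < 3 := by
      by_contra hlt
      push Not at hlt
      have : 3 ^ 8 ≤ q ^ 8 := Nat.pow_le_pow_left hlt 8
      norm_num at this
      omega
    interval_cases q
    exact bg_ex (r := 257) (by norm_num) (by norm_num) (by norm_num) (by decide) (by decide) (by norm_num)
  | k + 4, _, hle =>
    exfalso
    have h8 : 16 ≤ 2 ^ (k + 4) := by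
      calc 16 = 2 ^ 4 := rfl
        _ ≤ _ := Nat.pow_le_pow_right (by norm_num) (by omega)
    have h9 : (2 : ℕ) ^ (k + 4 + 1) = 2 * 2 ^ (k + 4) := by ring
    rw [h9] at hle
    generalize 2 ^ (k + 4) = u at hle h8
    have h10 : 2 ^ u ≤ q ^ u := Nat.pow_le_pow_left hq u
    have h11 : ∀ u : ℕ, 16 ≤ u → (2 * u + 1) * (2 * (2 * u) + 1) * 2 ≤ 2 ^ u := by
      intro t ht
      induction t, ht using Nat.le_induction with
      | base => norm_num
      | succ t ht ih => rw [pow_succ]; nlinarith
    have := h11 u h8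
    omega

theorem case_three_odd {q e : ℕ} (hp : q.Prime) (he : 6 ≤ e) (k : ℕ) (hek : e = 3 ^ (k + 1))
    (hle : Ph e q ≤ (e + 1) * (2 * e + 1) * 3) : Bg q e (2 * e + 1) := by
  have hq := hp.two_le
  rw [hek, Ph_three_odd hq] at hle
  match k, hek, hle with
  | 0, hek, _ => norm_num at hek; omega
  | 1, hek, hle =>
    norm_num at hle hek
    subst hek
    have hq3 : q < 3 := by
      by_contra hlt
      push Not at hlt
      have : 3 ^ 3 ≤ q ^ 3 := Nat.pow_le_pow_left hlt 3
      norm_num at this
      nlinarith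
    interval_cases q
    exact bg_ex (r := 73) (by norm_num) (by norm_num) (by norm_num) (by decide) (by decide) (by norm_num)
  | k + 2, _, hle =>
    exfalso
    have h8 : 9 ≤ 3 ^ (k + 2) := by
      calc 9 = 3 ^ 2 := rfl
        _ ≤ _ := Nat.pow_le_pow_right (by norm_num) (by omega)
    have h9 : (3 : ℕ) ^ (k + 2 + 1) = 3 * 3 ^ (k + 2) := by ring
    rw [h9] at hle
    generalize 3 ^ (k + 2) = u at hle h8
    have h10 : 2 ^ u ≤ q ^ u := Nat.pow_le_pow_left hq u
    have h11 : ∀ u : ℕ, 9 ≤ u → 10 * u + 10 ≤ 2 ^ u := by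
      intro t ht
      induction t, ht using Nat.le_induction with
      | base => norm_num
      | succ t ht ih => rw [pow_succ]; omega
    have h12 := h11 u h8
    nlinarith

theorem case_three {q e : ℕ} (hp : q.Prime) (k a : ℕ) (hek : e = 3 ^ (k + 1) * 2 ^ (a + 1))
    (hle : Ph e q ≤ (e + 1) * (2 * e + 1) * 3) (hE : ¬ Exc1 q e) : Bg q e (2 * e + 1) := by
  have hq := hp.two_le
  have hP := Ph_three (q := q) (k := k) (a := a) hq
  rw [← hek] at hP
  have h5 : 3 ^ k * 2 ^ a ≠ 5 := by
    intro h
    have h1 : (3 ^ k * 2 ^ a) % 5 = 0 := by rw [h]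
    have h2 : 5 ∣ 3 ^ k * 2 ^ a := Nat.dvd_of_mod_eq_zero h1
    rcases (by norm_num : Nat.Prime 5).dvd_mul.1 h2 with h3 | h3
    · have := (by norm_num : Nat.Prime 5).dvd_of_dvd_pow h3; omega
    · have := (by norm_num : Nat.Prime 5).dvd_of_dvd_pow h3; omega
  set t := 3 ^ k * 2 ^ a with ht
  have hn6 : e = 6 * t := by rw [hek, ht]; ring
  have ht1 : 1 ≤ t := Nat.mul_pos (by positivity) (by positivity)
  clear_value t
  subst hn6
  rcases (by omega : t = 1 ∨ t = 2 ∨ t = 3 ∨ t = 4 ∨ t = 6 ∨ 7 ≤ t) with h | h | h | h | h | h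
  · subst h
    rw [pow_one] at hP
    have : q ≤ 17 := by
      by_contra hlt
      push Not at hlt
      nlinarith
    interval_cases q
    · exact absurd (by simp [Exc1]) hE
    · exact absurd (by simp [Exc1]) hE
    · norm_num at hp
    · exact absurd (by simp [Exc1]) hE
    · norm_num at hp
    · exact bg_ex (r := 43) (by norm_num) (by norm_num) (by norm_num) (by decide) (by decide) (by norm_num)
    · norm_num at hp
    · norm_num at hp
    · norm_num at hp
    · exact bg_ex (r := 37) (by norm_num) (by norm_num) (by norm_num) (by decide) (by decide) (by norm_num)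
    · norm_num at hp
    · exact bg_ex (r := 157) (by norm_num) (by norm_num) (by norm_num) (by decide) (by decide) (by norm_num)
    · norm_num at hp
    · norm_num at hp
    · norm_num at hp
    · exact absurd (by simp [Exc1]) hE
  · subst h
    have : q < 6 := by
      by_contra hlt
      push Not at hlt
      have : 36 ≤ q ^ 2 := by nlinarith
      nlinarith
    interval_cases q
    · exact absurd (by simp [Exc1]) hE
    · exact bg_ex (r := 73) (by norm_num) (by norm_num) (by norm_num) (by decide) (by decide) (by norm_num)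
    · norm_num at hp
    · exact bg_ex (r := 601) (by norm_num) (by norm_num) (by norm_num) (by decide) (by decide) (by norm_num)
  · subst h
    have : q < 4 := by
      by_contra hlt
      push Not at hlt
      have : 64 ≤ q ^ 3 := by
        calc 64 = 4 ^ 3 := rfl
          _ ≤ q ^ 3 := Nat.pow_le_pow_left hlt 3
      nlinarith
    interval_cases q
    · exact absurd (by simp [Exc1]) hE
    · exact absurd (by simp [Exc1]) hE
  · subst h
    have : q < 3 := by
      by_contra hlt
      push Not at hlt
      have : 81 ≤ q ^ 4 := by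
        calc 81 = 3 ^ 4 := rfl
          _ ≤ q ^ 4 := Nat.pow_le_pow_left hlt 4
      nlinarith
    interval_cases q
    exact bg_ex (r := 241) (by norm_num) (by norm_num) (by norm_num) (by decide) (by decide) (by norm_num)
  · subst h
    have : q < 3 := by
      by_contra hlt
      push Not at hlt
      have : 729 ≤ q ^ 6 := by
        calc 729 = 3 ^ 6 := rfl
          _ ≤ q ^ 6 := Nat.pow_le_pow_left hlt 6
      nlinarith
    interval_cases q
    exact bg_ex (r := 109) (by norm_num) (by norm_num) (by norm_num) (by decide) (by decide) (by norm_num)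
  · exfalso
    have h10 : 2 ^ t ≤ q ^ t := Nat.pow_le_pow_left hq t
    have h11 : ∀ u : ℕ, 7 ≤ u → 18 * u ≤ 2 ^ u := by
      intro t ht
      induction t, ht using Nat.le_induction with
      | base => norm_num
      | succ t ht ih => rw [pow_succ]; omega
    have h12 := h11 t h
    nlinarith

theorem tot_small : ∀ m < 99, Nat.totient m ≤ 7 →
    m ∈ [0, 1, 2, 3, 4, 5, 6, 7, 8, 9, 10, 12, 14, 18] := by decide +kernel

theorem case_ge_five {q e : ℕ} (hp : q.Prime) (he : 6 ≤ e) (P k m : ℕ) (hP : P.Prime) (hP5 : 5 ≤ P)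
    (hek : e = P ^ (k + 1) * m) (hm0 : m ≠ 0) (hm : ¬ P ∣ m) (hmax : ∀ s : ℕ, s.Prime → s ∣ m → s ≤ P)
    (hle : Ph e q ≤ (e + 1) * (2 * e + 1) * P) (hE : ¬ Exc1 q e) : Bg q e (2 * e + 1) := by
  have hq := hp.two_le
  have hge := Ph_ge (k := k) hq hP (by omega) hm
  rw [← hek] at hge
  have hme := le_two_mul_totient_sq (Nat.pos_of_ne_zero hm0)
  have he1 : 1 ≤ m.totient := Nat.totient_pos.2 (Nat.pos_of_ne_zero hm0)
  have ht1 : 1 ≤ P ^ k := Nat.one_le_pow _ _ hP.pos
  have hx1 : 1 ≤ P ^ k * m.totient := Nat.mul_pos ht1 he1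
  by_cases hc : (5 ≤ P ∧ 8 ≤ P ^ k * m.totient) ∨ (7 ≤ P ∧ 4 ≤ P ^ k * m.totient) ∨
      (11 ≤ P ∧ 2 ≤ P ^ k * m.totient) ∨ (19 ≤ P ∧ 1 ≤ P ^ k * m.totient)
  · exfalso
    have hmain := g_main hc
    have h5 : 2 ^ ((P - 2) * (P ^ k * m.totient)) ≤ q ^ (P ^ k * ((P - 2) * m.totient)) := by
      rw [show P ^ k * ((P - 2) * m.totient) = (P - 2) * (P ^ k * m.totient) by ring]
      exact Nat.pow_le_pow_left hq _
    have h6 : e ≤ 2 * P * (P ^ k * m.totient) ^ 2 := by
      rw [hek]
      calc P ^ (k + 1) * m ≤ P ^ (k + 1) * (2 * m.totient ^ 2) := Nat.mul_le_mul_left _ hme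
        _ = 2 * P * (P ^ k * m.totient ^ 2) := by ring
        _ ≤ 2 * P * (P ^ k * (P ^ k * m.totient ^ 2)) := by
          apply Nat.mul_le_mul_left
          exact Nat.le_mul_of_pos_left _ ht1
        _ = _ := by ring
    have h7 : (e + 1) * (2 * e + 1) * P ≤ g P (P ^ k * m.totient) := by
      unfold g
      refine Nat.mul_le_mul_right _ (Nat.mul_le_mul (by omega) ?_)
      have : 4 * P * (P ^ k * m.totient) ^ 2 = 2 * (2 * P * (P ^ k * m.totient) ^ 2) := by ring
      omega
    omega
  · push Not at hc
    obtain ⟨hc1, hc2, hc3, hc4⟩ := hc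
    have hx2 := hc1 hP5
    have hP19 : P < 19 := by
      by_contra h
      push Not at h
      have := hc4 h
      omega
    have hk1 : k = 0 ∨ (k = 1 ∧ P = 5) := by
      rcases k with _ | _ | k
      · exact Or.inl rfl
      · right
        refine ⟨rfl, ?_⟩
        simp only [zero_add, pow_one] at hx2 hc2
        have h1 : P ≤ P * m.totient := Nat.le_mul_of_pos_right _ he1
        have h2 : P < 8 := by omega
        by_contra hne
        have h3 : P ≠ 6 := by rintro rfl; norm_num at hP
        have := hc2 (by omega)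
        omega
      · exfalso
        have h1 : 5 ^ 2 ≤ P ^ (k + 2) :=
          le_trans (Nat.pow_le_pow_left hP5 2) (Nat.pow_le_pow_right hP.pos (by omega))
        have h2 : P ^ (k + 2) ≤ P ^ (k + 2) * m.totient := Nat.le_mul_of_pos_right _ he1
        have h3 : k + 1 + 1 = k + 2 := rfl
        rw [h3] at hx2
        omega
    have htot : m.totient ≤ 7 := by
      have h2 : m.totient ≤ P ^ k * m.totient := Nat.le_mul_of_pos_left _ ht1
      omega
    have hm99 : m < 99 := by nlinarith
    have hlist := tot_small m hm99 htot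
    simp only [List.mem_cons, List.not_mem_nil, or_false] at hlist
    have hP' : P = 5 ∨ P = 7 ∨ P = 11 ∨ P = 13 ∨ P = 17 := by
      interval_cases P <;> first | omega | (exfalso; revert hP; norm_num)
    rcases hk1 with rfl | ⟨rfl, rfl⟩
    · simp only [pow_zero, one_mul, zero_add, pow_one] at hge hek hc1 hc2 hc3 hc4 hx2
      rcases hP' with rfl | rfl | rfl | rfl | rfl
      · -- `P = 5`
        have h7 : ¬ 7 ∣ m := fun h => by have := hmax 7 (by norm_num) h; omega
        rcases hlist with h | h | h | h | h | h | h | h | h | h | h | h | h | h <;> subst h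
        · exact absurd rfl hm0
        · omega
        · -- e = 10
          obtain rfl : e = 10 := by omega
          have := bd (B := 10) hge hle (by rw [show Nat.totient 2 = 1 from rfl]; norm_num)
          interval_cases q
          · exact absurd (by simp [Exc1]) hE
          · exact bg_ex (r := 61) (by norm_num) (by norm_num) (by norm_num) (by decide) (by decide) (by norm_num)
          · norm_num at hp
          · exact bg_ex (r := 521) (by norm_num) (by norm_num) (by norm_num) (by decide) (by decide) (by norm_num)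
          · norm_num at hp
          · exact bg_ex (r := 191) (by norm_num) (by norm_num) (by norm_num) (by decide) (by decide) (by norm_num)
          · norm_num at hp
          · norm_num at hp
          · norm_num at hp
        · -- e = 15
          obtain rfl : e = 15 := by omega
          have := bd (B := 3) hge hle (by rw [show Nat.totient 3 = 2 from rfl]; norm_num)
          interval_cases q
          · exact bg_ex (r := 151) (by norm_num) (by norm_num) (by norm_num) (by decide) (by decide) (by norm_num)
          · exact bg_ex (r := 4561) (by norm_num) (by norm_num) (by norm_num) (by decide) (by decide) (by norm_num)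
        · -- e = 20
          obtain rfl : e = 20 := by omega
          have := bd (B := 4) hge hle (by rw [show Nat.totient 4 = 2 from rfl]; norm_num)
          interval_cases q
          · exact absurd (by simp [Exc1]) hE
          · exact bg_ex (r := 1181) (by norm_num) (by norm_num) (by norm_num) (by decide) (by decide) (by norm_num)
          · norm_num at hp
        · exact absurd dvd_rfl hm
        · -- e = 30
          obtain rfl : e = 30 := by omega
          have := bd (B := 4) hge hle (by rw [show Nat.totient 6 = 2 from rfl]; norm_num)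
          interval_cases q
          · exact bg_ex (r := 331) (by norm_num) (by norm_num) (by norm_num) (by decide) (by decide) (by norm_num)
          · exact bg_ex (r := 271) (by norm_num) (by norm_num) (by norm_num) (by decide) (by decide) (by norm_num)
          · norm_num at hp
        · exact absurd dvd_rfl h7
        · -- e = 40
          obtain rfl : e = 40 := by omega
          have := bd (B := 2) hge hle (by rw [show Nat.totient 8 = 4 from rfl]; norm_num)
          interval_cases q
          exact bg_ex (r := 61681) (by norm_num) (by norm_num) (by norm_num) (by decide) (by decide) (by norm_num)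
        · -- e = 45
          obtain rfl : e = 45 := by omega
          have := bd (B := 1) hge hle (by rw [show Nat.totient 9 = 6 from rfl]; norm_num)
          omega
        · exact absurd (by norm_num) hm
        · -- e = 60
          obtain rfl : e = 60 := by omega
          have := bd (B := 2) hge hle (by rw [show Nat.totient 12 = 4 from rfl]; norm_num)
          interval_cases q
          exact bg_ex (r := 1321) (by norm_num) (by norm_num) (by norm_num) (by decide) (by decide) (by norm_num)
        · exact absurd (by norm_num) h7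
        · -- e = 90
          obtain rfl : e = 90 := by omega
          have := bd (B := 1) hge hle (by rw [show Nat.totient 18 = 6 from rfl]; norm_num)
          omega
      · -- `P = 7`
        have h4 := hc2 (by norm_num)
        rcases hlist with h | h | h | h | h | h | h | h | h | h | h | h | h | h <;> subst h
        · exact absurd rfl hm0
        · -- e = 7
          obtain rfl : e = 7 := by omega
          have := bd (B := 3) hge hle (by rw [show Nat.totient 1 = 1 from rfl]; norm_num)
          interval_cases q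
          · exact bg_ex (r := 127) (by norm_num) (by norm_num) (by norm_num) (by decide) (by decide) (by norm_num)
          · exact bg_ex (r := 1093) (by norm_num) (by norm_num) (by norm_num) (by decide) (by decide) (by norm_num)
        · -- e = 14
          obtain rfl : e = 14 := by omega
          have := bd (B := 4) hge hle (by rw [show Nat.totient 2 = 1 from rfl]; norm_num)
          interval_cases q
          · exact bg_ex (r := 43) (by norm_num) (by norm_num) (by norm_num) (by decide) (by decide) (by norm_num)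
          · exact bg_ex (r := 547) (by norm_num) (by norm_num) (by norm_num) (by decide) (by decide) (by norm_num)
          · norm_num at hp
        · -- e = 21
          obtain rfl : e = 21 := by omega
          have := bd (B := 2) hge hle (by rw [show Nat.totient 3 = 2 from rfl]; norm_num)
          interval_cases q
          exact bg_ex (r := 337) (by norm_num) (by norm_num) (by norm_num) (by decide) (by decide) (by norm_num)
        · -- e = 28
          obtain rfl : e = 28 := by omega
          have := bd (B := 2) hge hle (by rw [show Nat.totient 4 = 2 from rfl]; norm_num)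
          interval_cases q
          exact bg_ex (r := 113) (by norm_num) (by norm_num) (by norm_num) (by decide) (by decide) (by norm_num)
        · exact absurd h4 (by decide)
        · -- e = 42
          obtain rfl : e = 42 := by omega
          have := bd (B := 2) hge hle (by rw [show Nat.totient 6 = 2 from rfl]; norm_num)
          interval_cases q
          exact bg_ex (r := 5419) (by norm_num) (by norm_num) (by norm_num) (by decide) (by decide) (by norm_num)
        all_goals exact absurd h4 (by decide)
      · -- `P = 11`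
        have h4 := hc3 (by norm_num)
        rcases hlist with h | h | h | h | h | h | h | h | h | h | h | h | h | h <;> subst h
        · exact absurd rfl hm0
        · obtain rfl : e = 11 := by omega
          have := bd (B := 2) hge hle (by rw [show Nat.totient 1 = 1 from rfl]; norm_num)
          interval_cases q
          exact bg_ex (r := 89) (by norm_num) (by norm_num) (by norm_num) (by decide) (by decide) (by norm_num)
        · obtain rfl : e = 22 := by omega
          have := bd (B := 2) hge hle (by rw [show Nat.totient 2 = 1 from rfl]; norm_num)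
          interval_cases q
          exact bg_ex (r := 683) (by norm_num) (by norm_num) (by norm_num) (by decide) (by decide) (by norm_num)
        all_goals exact absurd h4 (by decide)
      · -- `P = 13`
        have h4 := hc3 (by norm_num)
        rcases hlist with h | h | h | h | h | h | h | h | h | h | h | h | h | h <;> subst h
        · exact absurd rfl hm0
        · obtain rfl : e = 13 := by omega
          have := bd (B := 2) hge hle (by rw [show Nat.totient 1 = 1 from rfl]; norm_num)
          interval_cases q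
          exact bg_ex (r := 8191) (by norm_num) (by norm_num) (by norm_num) (by decide) (by decide) (by norm_num)
        · obtain rfl : e = 26 := by omega
          have := bd (B := 2) hge hle (by rw [show Nat.totient 2 = 1 from rfl]; norm_num)
          interval_cases q
          exact bg_ex (r := 2731) (by norm_num) (by norm_num) (by norm_num) (by decide) (by decide) (by norm_num)
        all_goals exact absurd h4 (by decide)
      · -- `P = 17`
        have h4 := hc3 (by norm_num)
        rcases hlist with h | h | h | h | h | h | h | h | h | h | h | h | h | h <;> subst h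
        · exact absurd rfl hm0
        · obtain rfl : e = 17 := by omega
          have := bd (B := 1) hge hle (by rw [show Nat.totient 1 = 1 from rfl]; norm_num)
          omega
        · obtain rfl : e = 34 := by omega
          have := bd (B := 2) hge hle (by rw [show Nat.totient 2 = 1 from rfl]; norm_num)
          interval_cases q
          exact bg_ex (r := 43691) (by norm_num) (by norm_num) (by norm_num) (by decide) (by decide) (by norm_num)
        all_goals exact absurd h4 (by decide)
    · -- `P = 5`, `k = 1`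
      have h4 : m.totient = 1 := by omega
      rcases Nat.totient_eq_one_iff.1 h4 with rfl | rfl
      · obtain rfl : e = 25 := by omega
        have := bd (B := 1) hge hle (by rw [show Nat.totient 1 = 1 from rfl]; norm_num)
        omega
      · obtain rfl : e = 50 := by omega
        have := bd (B := 1) hge hle (by rw [show Nat.totient 2 = 1 from rfl]; norm_num)
        omega

/-- **The base field case.** -/
theorem bg_one {q e : ℕ} (hp : q.Prime) (he : 6 ≤ e) (hE : ¬ Exc1 q e) : Bg q e (2 * e + 1) := by
  by_contra hno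
  have hne : e.primeFactors.Nonempty := Nat.nonempty_primeFactors.2 (by omega)
  set P := e.primeFactors.max' hne with hPdef
  have hPmem : P ∈ e.primeFactors := Finset.max'_mem _ _
  have hP : P.Prime := Nat.prime_of_mem_primeFactors hPmem
  have hPe : P ∣ e := Nat.dvd_of_mem_primeFactors hPmem
  have hmax : ∀ s : ℕ, s.Prime → s ∣ e → s ≤ P := fun s hs hsn =>
    Finset.le_max' _ _ (Nat.mem_primeFactors.2 ⟨hs, hsn, by omega⟩)
  clear_value P
  have hle := Ph_le_of_not hp.two_le (by omega) hP hPe hmax hno
  obtain ⟨k, m, hm, hek⟩ := Nat.exists_eq_pow_mul_and_not_dvd (n := e) (by omega) P hP.ne_one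
  have hm0 : m ≠ 0 := by rintro rfl; simp at hm
  obtain ⟨j, rfl⟩ : ∃ j, k = j + 1 := by
    refine Nat.exists_eq_succ_of_ne_zero ?_
    rintro rfl
    rw [pow_zero, one_mul] at hek
    exact hm (hek ▸ hPe)
  have hmm : ∀ s : ℕ, s.Prime → s ∣ m → s ≤ P := fun s hs hsm =>
    hmax s hs (hsm.trans (Dvd.intro_left _ hek.symm))
  rcases Nat.lt_or_ge P 3 with hP3 | hP3
  · obtain rfl : P = 2 := by have := hP.two_le; omega
    have hm1 : m = 1 := by
      by_contra hne
      obtain ⟨s, hs, hsm⟩ := Nat.exists_prime_and_dvd hne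
      have : s = 2 := le_antisymm (hmm s hs hsm) hs.two_le
      exact hm (this ▸ hsm)
    subst hm1
    rw [mul_one] at hek
    exact hno (case_two hp he j hek hle hE)
  · rcases Nat.lt_or_ge P 5 with hP5 | hP5
    · obtain rfl : P = 3 := by
        rcases (by omega : P = 3 ∨ P = 4) with h | h
        · exact h
        · subst h; norm_num at hP
      have hm2 : m = 2 ^ m.primeFactorsList.length := by
        refine Nat.eq_prime_pow_of_unique_prime_dvd hm0 ?_
        intro s hs hsm
        have h1 := hmm s hs hsm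
        have h2 := hs.two_le
        rcases (by omega : s = 2 ∨ s = 3) with h | h
        · exact h
        · exact absurd (h ▸ hsm) hm
      rcases Nat.eq_zero_or_pos m.primeFactorsList.length with h0 | h0
      · rw [h0, pow_zero] at hm2
        subst hm2
        rw [mul_one] at hek
        exact hno (case_three_odd hp he j hek hle)
      · obtain ⟨a, ha⟩ : ∃ a, m.primeFactorsList.length = a + 1 := ⟨m.primeFactorsList.length - 1, by omega⟩
        rw [ha] at hm2
        subst hm2
        exact hno (case_three hp j a hek hle hE)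
    · exact hno (case_ge_five hp he P j m hP hP5 hek hm0 hm hmm hle hE)

/-- **Big `p`-primitive prime powers.** -/
theorem bg_all {p f k : ℕ} (hp : p.Prime) (hf : 1 ≤ f) (hk : 6 ≤ k)
    (hex : (p, f, k) ∉ [(2, 1, 6), (2, 1, 8), (2, 1, 10), (2, 1, 12), (2, 1, 18), (2, 1, 20), (3, 1, 6), (3, 1, 18),
      (5, 1, 6), (17, 1, 6), (2, 2, 6), (2, 2, 9)]) : Bg p (f * k) (2 * k + 1) := by
  have hp2 := hp.two_le
  rcases (by omega : f = 1 ∨ f = 2 ∨ 3 ≤ f) with rfl | rfl | hf3
  · rw [one_mul]
    apply bg_one hp hk
    intro h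
    apply hex
    unfold Exc1 at h
    simp only [List.mem_cons, Prod.mk.injEq, List.not_mem_nil, or_false] at h ⊢
    rcases h with h | h | h | h | h | h | h | h | h | h <;> obtain ⟨rfl, rfl⟩ := h <;> simp
  · -- `f = 2`: large Zsigmondy primes
    have hL : Large p (2 * k) := by
      refine large_zsigmondy p (2 * k) hp2 (by omega) ?_ ?_ ?_ ?_
      · rintro ⟨h, -⟩; omega
      · rintro ⟨rfl, h⟩
        rcases (by omega : k = 6 ∨ k = 9) with rfl | rfl <;> exact hex (by simp)
      · rintro ⟨rfl, h⟩; omega
      · rintro ⟨rfl, h⟩; omega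
    obtain ⟨r, hr, h1, h2, h3⟩ := hL
    have hord : orderOf ((p : ℕ) : ZMod r) = 2 * k := by
      have h4 := (dvd_pow_sub_one_iff (by omega) _).1 h1
      have h5 : 0 < orderOf ((p : ℕ) : ZMod r) := Nat.pos_of_dvd_of_pos h4 (by omega)
      by_contra hne
      have h6 : orderOf ((p : ℕ) : ZMod r) < 2 * k := lt_of_le_of_ne (Nat.le_of_dvd (by omega) h4) hne
      exact h2 _ h5 h6 ((dvd_pow_sub_one_iff (by omega) _).2 dvd_rfl)
    have hf1 := one_le_fact hp2 (by omega : 1 ≤ 2 * k) hr hord
    refine ⟨r, hr, hord, ?_⟩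
    rcases h3 with h3 | h3
    · calc 2 * k + 1 < r := h3
        _ = r ^ 1 := (pow_one r).symm
        _ ≤ _ := Nat.pow_le_pow_right hr.pos hf1
    · have h4 : 2 ≤ (p ^ (2 * k) - 1).factorization r :=
        (hr.pow_dvd_iff_le_factorization (pow_sub_ne hp2 (by omega))).1 h3
      have hra : ¬ r ∣ p := by
        intro hd
        have := Fact.mk hr
        have h0 : (p : ZMod r) = 0 := (ZMod.natCast_eq_zero_iff p r).2 hd
        have h1 : (p : ZMod r) ^ (2 * k) = 1 := by rw [← hord]; exact pow_orderOf_eq_one _
        rw [h0, zero_pow (by omega)] at h1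
        exact zero_ne_one h1
      have h5 : 2 * k ∣ r - 1 := by rw [← hord]; exact orderOf_dvd_pred hr hra
      have h6 := Nat.le_of_dvd (by have := hr.two_le; omega) h5
      calc 2 * k + 1 < (2 * k + 1) ^ 2 := by nlinarith
        _ ≤ r ^ 2 := Nat.pow_le_pow_left (by omega) 2
        _ ≤ _ := Nat.pow_le_pow_right hr.pos h4
  · -- `f ≥ 3`
    have h18 : 18 ≤ f * k := by nlinarith
    obtain ⟨r, hr, hord⟩ := exists_prime_orderOf hp2 (by omega : 2 ≤ f * k) (by intro h; omega)
      (by rintro ⟨-, h⟩; omega)
    have hf1 := one_le_fact hp2 (by omega : 1 ≤ f * k) hr hord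
    have hra : ¬ r ∣ p := by
      intro hd
      have := Fact.mk hr
      have h0 : (p : ZMod r) = 0 := (ZMod.natCast_eq_zero_iff p r).2 hd
      have h1 : (p : ZMod r) ^ (f * k) = 1 := by rw [← hord]; exact pow_orderOf_eq_one _
      rw [h0, zero_pow (by omega)] at h1
      exact zero_ne_one h1
    have h5 : f * k ∣ r - 1 := by rw [← hord]; exact orderOf_dvd_pred hr hra
    have h6 := Nat.le_of_dvd (by have := hr.two_le; omega) h5
    have h7 := Nat.mul_le_mul_right k hf3
    refine ⟨r, hr, hord, ?_⟩
    calc 2 * k + 1 < r := by omega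
      _ = r ^ 1 := (pow_one r).symm
      _ ≤ _ := Nat.pow_le_pow_right hr.pos hf1

/-- **PSL-5 = (N)**: existence of big `p`-primitive prime powers. -/
theorem exists_big {p f k : ℕ} (hp : p.Prime) (hf : 1 ≤ f) (hk : 6 ≤ k)
    (hex : (p, f, k) ∉ [(2, 1, 6), (2, 1, 8), (2, 1, 10), (2, 1, 12), (2, 1, 18), (2, 1, 20), (3, 1, 6), (3, 1, 18),
      (5, 1, 6), (17, 1, 6), (2, 2, 6), (2, 2, 9)]) :
    ∃ r, Cfsg.Agent.H851.Rl.Big p f k r (((p ^ f) ^ k - 1).factorization r) := by
  obtain ⟨r, hr, hord, hb⟩ := bg_all hp hf hk hex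
  rw [pow_mul] at hb
  exact ⟨r, hp, hr, hord, hf, by omega, Nat.ordProj_dvd _ _, hb⟩

end Cfsg.Agent.H803.Rl
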