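import Cfsg.Agent.H304.PpdClass

/-!
# S3691, PSL-12: primes of odd order do not divide a unitary similarity group of small rank (helper803)

`u_not2`: `g` a unitary form on `ι → F`, `|F| = q₀ ^ 2`, `r` prime with `ord_r(q₀) = k'` odd, `2 ≤ |ι| < 2 k'`: then `r` does not divide the
order of the similarity group of `g`.
-/

set_option autoImplicit false
set_option linter.style.haveILetI false

namespace Cfsg.Agent.H803.Rl

open Matrix Cfsg Cfsg.Geo Cfsg.Agent.H728.DghpNum Cfsg.Agent.H304.Ppd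

section Num

/-- `-q₀` is no power of `q₀ ^ 2` modulo `r` if the order of `q₀` is odd -/
theorem not_neg_pow {r q₀ k' i : ℕ} (hr : r.Prime) (hr2 : r ≠ 2) (hord : orderOf ((q₀ : ℕ) : ZMod r) = k') (hodd : Odd k')
    (h : (-((q₀ : ℕ) : ZMod r)) = ((q₀ : ℕ) : ZMod r) ^ i) : False := by
  haveI : Fact r.Prime := ⟨hr⟩
  have hk : 0 < k' := hodd.pos
  have h1 : ((q₀ : ℕ) : ZMod r) * ((q₀ : ℕ) : ZMod r) ^ (k' - 1) = 1 := by
    rw [← pow_succ', Nat.sub_add_cancel hk, ← hord, pow_orderOf_eq_one]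
  have h2 : (-1 : ZMod r) = ((q₀ : ℕ) : ZMod r) ^ (i + (k' - 1)) := by
    rw [pow_add, ← h, neg_mul, h1]
  have h3 := even_of_neg_one hr hr2 hord h2
  exact (Nat.not_even_iff_odd.mpr hodd) h3

theorem eq_of_sq {a b : ℕ} (h : a ^ 2 = b ^ 2) : a = b := by
  exact Nat.pow_left_injective two_ne_zero h

end Num

variable {ι : Type*} [Fintype ι] [DecidableEq ι] {F : Type*} [Field F] [Fintype F]

/-- the form version of the exponent: `-(p ^ k)` is a power of `|F|` modulo `u` -/
theorem exists_neg {u e p k : ℕ} [Fact p.Prime] [CharP F p] (hu : u.Prime)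
    (hord : orderOf ((Fintype.card F : ℕ) : ZMod u) = e)
    (hqu : ¬ u ∣ Fintype.card F) (hqk : ¬ u ∣ p ^ k) (hn : Fintype.card ι < 2 * e) {x : GL ι F} (hx : orderOf x = u)
    {G : Matrix ι ι F} (hG : G.det ≠ 0)
    (h : (x : Matrix ι ι F)ᵀ * G * (x : Matrix ι ι F).map (fun a => a ^ p ^ k) = G) :
    ∃ i : ℕ, (-((p ^ k : ℕ) : ZMod u)) = ((Fintype.card F : ℕ) : ZMod u) ^ i := by
  haveI : Fact u.Prime := ⟨hu⟩
  set E := AlgebraicClosure F with hE
  haveI : CharP E p := charP_of_injective_algebraMap (algebraMap F E).injective p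
  haveI : ExpChar E p := ExpChar.prime Fact.out
  haveI : ExpChar F p := ExpChar.prime Fact.out
  have hmu : ¬ u ∣ (u - 1) * p ^ k := by
    intro h1
    rcases hu.dvd_mul.mp h1 with h2 | h2
    · exact absurd (Nat.le_of_dvd (by have := hu.two_le; omega) h2) (by have := hu.two_le; omega)
    · exact hqk h2
  set B : Matrix ι ι F := (x : Matrix ι ι F).map (fun a => a ^ p ^ k) with hB
  have hfr : ∀ M : Matrix ι ι F, M.map (fun a => a ^ p ^ k) = M.map (iterateFrobenius F p k) := by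
    intro M
    ext i j
    simp [iterateFrobenius_def]
  set B' : Matrix ι ι F := ((x⁻¹ : GL ι F) : Matrix ι ι F).map (fun a => a ^ p ^ k) with hB'
  have hBB : B' * B = 1 := by
    rw [hB, hB', hfr, hfr, ← Matrix.map_mul, ← Units.val_mul, inv_mul_cancel, Units.val_one,
      Matrix.map_one _ (map_zero _) (map_one _)]
  have hBB' : B * B' = 1 := by
    rw [hB, hB', hfr, hfr, ← Matrix.map_mul, ← Units.val_mul, mul_inv_cancel, Units.val_one,
      Matrix.map_one _ (map_zero _) (map_one _)]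
  obtain ⟨i, hi⟩ := exists_exponent hu hord hqu hn hx hmu (by
    intro l hlu hl
    have h1 : Ev (AlgebraicClosure F) B (l ^ p ^ k) := by
      have := hl.map (iterateFrobenius (AlgebraicClosure F) p k) (B := B) (fun i j => by
        rw [iterateFrobenius_def, hB, Matrix.map_apply, map_pow])
      rwa [iterateFrobenius_def] at this
    obtain ⟨h2, hl0⟩ := Ev.inv hBB h1
    have h3 : (x : Matrix ι ι F)ᵀ * G = G * B' := by
      calc (x : Matrix ι ι F)ᵀ * G = (x : Matrix ι ι F)ᵀ * G * (B * B') := by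
            rw [hBB', mul_one]
        _ = ((x : Matrix ι ι F)ᵀ * G * B) * B' := by
            simp only [Matrix.mul_assoc]
        _ = _ := by rw [h]
    have h5 := ev_transpose.mp (Ev.conj hG h3 h2)
    have h6 : l ^ ((u - 1) * p ^ k) = (l ^ p ^ k)⁻¹ := by
      have hl1 : l ^ (u - 1) = l⁻¹ := by
        apply eq_inv_of_mul_eq_one_left
        rw [← pow_succ, Nat.sub_add_cancel hu.one_lt.le, hlu]
      rw [pow_mul, hl1, inv_pow]
    rw [h6]
    exact h5)
  rw [Nat.cast_mul, Nat.cast_sub hu.one_lt.le, ZMod.natCast_self, zero_sub, Nat.cast_one, neg_one_mul] at hi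
  exact ⟨i, hi⟩

end Cfsg.Agent.H803.Rl

namespace Cfsg.Agent.H803.Rl

open Matrix Cfsg Cfsg.Geo Cfsg.Agent.H728.DghpNum Cfsg.Agent.H304.Ppd

variable {F : Type} [Field F] [Fintype F]

/-- PSL-12 -/
theorem u_not2 {ι : Type} [Fintype ι] [DecidableEq ι] {σ : F ≃+* F} {g : (ι → F) → (ι → F) → F} (hg : IsUnitaryForm σ g)
    {q₀ r k' : ℕ} (hF : Fintype.card F = q₀ ^ 2) (hr : r.Prime) (hord : orderOf ((q₀ : ℕ) : ZMod r) = k') (hodd : Odd k')
    (hk : Fintype.card ι < 2 * k') (hn : 2 ≤ Fintype.card ι) : ¬ r ∣ Nat.card (similarityGroup g) := by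
  intro hdvd
  haveI : Fact r.Prime := ⟨hr⟩
  haveI : Nonempty ι := Fintype.card_pos_iff.mp (by omega)
  have hk2 : 2 ≤ k' := by
    obtain ⟨j, hj⟩ := hodd
    omega
  obtain ⟨x, hx⟩ := exists_prime_orderOf_dvd_card' (G := similarityGroup g) r hdvd
  have hx' : orderOf (x : GL ι F) = r := by rw [Subgroup.orderOf_coe, hx]
  -- `r` is not a divisor of `q₀`
  have hq0 : ((q₀ : ℕ) : ZMod r) ≠ 0 := by
    intro h0
    rw [h0, orderOf_zero] at hord
    omega
  have hrq : ¬ r ∣ q₀ := by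
    rwa [Ne, ZMod.natCast_eq_zero_iff] at hq0
  have hr2 : r ≠ 2 := by
    rintro rfl
    have h1 : ((q₀ : ℕ) : ZMod 2) = 1 := by
      rw [ZMod.natCast_eq_one_iff_odd, ← Nat.not_even_iff_odd, even_iff_two_dvd]
      exact hrq
    rw [h1, orderOf_one] at hord
    omega
  have hordF : orderOf ((Fintype.card F : ℕ) : ZMod r) = k' := by
    rw [hF, Nat.cast_pow, orderOf_pow' _ two_ne_zero, hord]
    have : Nat.gcd k' 2 = 1 := hodd.coprime_two_right
    rw [this, Nat.div_one]
  have hrF : ¬ r ∣ Fintype.card F := by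
    rw [hF]
    exact fun h => hrq (hr.dvd_of_dvd_pow h)
  have hP : Ppd (Fintype.card F) k' r := ⟨hr, hordF, hrF⟩
  -- the form
  obtain ⟨c, hc⟩ := x.2
  have hc1 := multiplier_eq_one hP hk2 hx' (exists_ne_zero hg.nondegenerate) hc
  have hs := H914.IsSesq.of_unitary hg
  have h1 := H914.fixes_gram hs (M := ((x : GL ι F) : Matrix ι ι F)) (fun a b => by rw [hc, hc1, Units.val_one, one_mul])
  obtain ⟨p, k, hp, hchar, hcard, hσ⟩ := exists_frobenius hg.ne_refl hg.involutive
  haveI : Fact p.Prime := ⟨hp⟩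
  have hpk : p ^ k = q₀ := eq_of_sq (by rw [← hcard, hF])
  have h2 : ((x : GL ι F) : Matrix ι ι F).map σ = ((x : GL ι F) : Matrix ι ι F).map (fun a => a ^ p ^ k) := by
    ext i j
    exact hσ _
  rw [h2] at h1
  obtain ⟨i, hi⟩ := exists_neg hr hordF hrF (by rw [hpk]; exact hrq) hk hx' (H914.det_gram_ne_zero hs hg.nondegenerate) h1
  rw [hpk, hF, Nat.cast_pow, ← pow_mul] at hi
  exact not_neg_pow hr hr2 hord hodd hi

end Cfsg.Agent.H803.Rl
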